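import Mathlib

/-!
In a solvable group acting on a non-central chief factor of `p`-power order, the commutator of a random element
with the factor has, on average, at least a quarter of the dimension of the factor.
-/

set_option autoImplicit false
set_option linter.style.haveILetI false

namespace CfsgLib.ClassPPart

open Subgroup

variable {Q : Type*} [Group Q]

/-- The centraliser of a single element. -/
abbrev cz (x : Q) : Subgroup Q := Subgroup.centralizer ({x} : Set Q)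

theorem mem_cz {x y : Q} : y ∈ cz x ↔ y * x = x * y := Subgroup.mem_centralizer_singleton_iff

theorem mem_cz_conj {x y : Q} : y ∈ cz x ↔ x * y * x⁻¹ = y := by
  rw [mem_cz, mul_inv_eq_iff_eq_mul, eq_comm]

theorem pair_relIndex_le [Finite Q] (V : Subgroup Q) (g o : Q) :
    (cz o).relIndex V ≤ (cz g).relIndex V * (cz (g * o)).relIndex V := by
  refine le_trans ?_ Subgroup.relIndex_inf_le
  have hne : (cz g ⊓ cz (g * o)).relIndex V ≠ 0 := Subgroup.index_ne_zero_of_finite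
  refine Nat.le_of_dvd (Nat.pos_of_ne_zero hne) (Subgroup.relIndex_dvd_of_le_left V ?_)
  intro y hy
  have h1 := mem_cz.1 hy.1
  have h2 := mem_cz.1 hy.2
  rw [mem_cz]
  refine mul_left_cancel (a := g) ?_
  calc g * (y * o) = y * g * o := by rw [h1]; group
    _ = y * (g * o) := by group
    _ = g * o * y := h2
    _ = g * (o * y) := by group

theorem relIndex_mul_inf [Finite Q] (H U : Subgroup Q) :
    H.relIndex U * Nat.card ↥(U ⊓ H) = Nat.card U := by
  have h := Subgroup.relIndex_mul_relIndex ⊥ (U ⊓ H) U bot_le inf_le_left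
  rw [Subgroup.relIndex_bot_left, Subgroup.relIndex_bot_left, inf_comm, Subgroup.inf_relIndex_right] at h
  rw [mul_comm, inf_comm]
  exact h

/-- An abelian operator group of coprime order without fixed points contains an element whose fixed points have
at most the square root of the order. -/
theorem exists_small_fixed [Finite Q] {V O : Subgroup Q} (hV : ∀ u ∈ V, ∀ w ∈ V, u * w = w * u)
    (hcop : (Nat.card O).Coprime (Nat.card V))
    (hOc : ∀ a ∈ O, ∀ b ∈ O, ∀ v ∈ V, a * b * v * (a * b)⁻¹ = b * a * v * (b * a)⁻¹) :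
    ∀ U : Subgroup Q, U ≤ V → (∀ o ∈ O, ∀ u ∈ U, o * u * o⁻¹ ∈ U) →
      U ⊓ Subgroup.centralizer (O : Set Q) = ⊥ →
      ∃ o ∈ O, Nat.card ↥(U ⊓ cz o) * Nat.card ↥(U ⊓ cz o) ≤ Nat.card U := by
  intro U
  induction hn : Nat.card U using Nat.strong_induction_on generalizing U with
  | _ n ih =>
  intro hUV hinv hfix
  subst hn
  by_cases hU : U = ⊥
  · refine ⟨1, O.one_mem, ?_⟩
    subst hU
    simp
  obtain ⟨a, ha, haU⟩ : ∃ a ∈ O, ¬ U ≤ cz a := by
    by_contra hc
    push Not at hc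
    refine hU (eq_bot_iff.2 fun u hu => ?_)
    rw [← hfix]
    exact ⟨hu, Subgroup.mem_centralizer_iff.2 fun o ho => (mem_cz.1 (hc o ho hu)).symm⟩
  set U0 := U ⊓ cz a with hU0
  have hlt : Nat.card U0 < Nat.card U :=
    Set.ncard_lt_ncard (s := (U0 : Set Q)) (t := (U : Set Q))
      (SetLike.coe_ssubset_coe.2 (lt_of_le_of_ne inf_le_left fun h => haU (inf_eq_left.1 h))) (Set.toFinite _)
  have hinv0 : ∀ o ∈ O, ∀ u ∈ U0, o * u * o⁻¹ ∈ U0 := by
    intro o ho u hu
    refine ⟨hinv o ho u hu.1, mem_cz_conj.2 ?_⟩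
    calc a * (o * u * o⁻¹) * a⁻¹ = a * o * u * (a * o)⁻¹ := by group
      _ = o * a * u * (o * a)⁻¹ := hOc a ha o ho u (hUV hu.1)
      _ = o * (a * u * a⁻¹) * o⁻¹ := by group
      _ = o * u * o⁻¹ := by rw [mem_cz_conj.1 hu.2]
  obtain ⟨b, hb, hb0⟩ := ih (Nat.card U0) hlt U0 rfl (inf_le_left.trans hUV) hinv0
    (eq_bot_iff.2 (le_trans (inf_le_inf_right _ inf_le_left) hfix.le))
  let φ : U →* Q := MonoidHom.mk' (fun u => a * (u : Q) * a⁻¹ * (u : Q)⁻¹) (by
    intro u w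
    have hcw : (a * (w : Q) * a⁻¹ * (w : Q)⁻¹) * (u : Q)⁻¹ = (u : Q)⁻¹ * (a * (w : Q) * a⁻¹ * (w : Q)⁻¹) :=
      hV _ (hUV (U.mul_mem (hinv a ha w w.2) (U.inv_mem w.2))) _ (hUV (U.inv_mem u.2))
    calc a * ((u * w : U) : Q) * a⁻¹ * ((u * w : U) : Q)⁻¹
        = a * (u : Q) * a⁻¹ * ((a * (w : Q) * a⁻¹ * (w : Q)⁻¹) * (u : Q)⁻¹) := by
          rw [Subgroup.coe_mul]; group
      _ = _ := by rw [hcw]; group)
  have hφU : φ.range ≤ U := by
    rintro _ ⟨u, rfl⟩
    exact U.mul_mem (hinv a ha u u.2) (U.inv_mem u.2)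
  have hker : ∀ u : U, φ u = 1 ↔ (u : Q) ∈ cz a := fun u => by
    rw [mem_cz_conj]
    exact mul_inv_eq_one
  set W := φ.range with hW
  have hWa : W ⊓ cz a = ⊥ := by
    rw [eq_bot_iff]
    rintro w ⟨⟨u, rfl⟩, hwa⟩
    rw [Subgroup.mem_bot]
    set w := φ u with hw
    have hw1 : a * (u : Q) * a⁻¹ = w * u := by rw [hw]; simp [φ]
    have hiter : ∀ k : ℕ, a ^ k * (u : Q) * (a ^ k)⁻¹ = w ^ k * u := by
      intro k
      induction k with
      | zero => simp
      | succ k ihk =>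
        have hcomm : Commute a (w ^ k) := (Commute.pow_right (mem_cz.1 hwa).symm k)
        calc a ^ (k + 1) * (u : Q) * (a ^ (k + 1))⁻¹ = a * (a ^ k * u * (a ^ k)⁻¹) * a⁻¹ := by
              rw [pow_succ']; group
          _ = a * w ^ k * (u : Q) * a⁻¹ := by rw [ihk]; group
          _ = w ^ k * (a * (u : Q) * a⁻¹) := by rw [hcomm.eq]; group
          _ = w ^ (k + 1) * u := by rw [hw1, pow_succ]; group
    have h1 := hiter (orderOf a)
    rw [pow_orderOf_eq_one, one_mul, inv_one, mul_one] at h1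
    have hwk : w ^ orderOf a = 1 := mul_right_cancel (h1.symm.trans (one_mul _).symm)
    have hwV : w ∈ V := hUV (hφU ⟨u, rfl⟩)
    refine orderOf_eq_one_iff.1 (Nat.eq_one_of_dvd_coprimes hcop ?_ (Subgroup.orderOf_dvd_natCard _ hwV))
    exact (orderOf_dvd_of_pow_eq_one hwk).trans (Subgroup.orderOf_dvd_natCard _ ha)
  have hsplit : Nat.card U0 * Nat.card W = Nat.card U := by
    have h1 := Subgroup.index_mul_card φ.ker
    rw [Subgroup.index_ker] at h1
    have h2 : Nat.card φ.ker = Nat.card U0 := by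
      refine Nat.card_congr
        { toFun := fun u => ⟨(u.1 : Q), u.1.2, (hker u.1).1 u.2⟩
          invFun := fun u => ⟨⟨u.1, u.2.1⟩, (hker _).2 u.2.2⟩
          left_inv := fun u => rfl
          right_inv := fun u => rfl }
    rw [h2] at h1
    rw [mul_comm]
    exact h1
  have hcount : ∀ x ∈ O, Nat.card ↥(U ⊓ cz x) ≤ Nat.card ↥(U0 ⊓ cz x) * Nat.card ↥(W ⊓ cz x) := by
    intro x hx
    let ψ : ↥(U ⊓ cz x) →* Q := φ.comp (Subgroup.inclusion inf_le_left)
    have h1 := Subgroup.index_mul_card ψ.ker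
    rw [Subgroup.index_ker] at h1
    have h2 : Nat.card ψ.ker ≤ Nat.card ↥(U0 ⊓ cz x) := by
      refine Nat.card_le_card_of_injective
        (fun u => (⟨(u.1 : Q), ⟨u.1.2.1, (hker ⟨u.1, u.1.2.1⟩).1 u.2⟩, u.1.2.2⟩ : ↥(U0 ⊓ cz x))) ?_
      intro u v huv
      exact Subtype.ext (Subtype.ext (congrArg (fun z : ↥(U0 ⊓ cz x) => (z : Q)) huv))
    have h3 : Nat.card ψ.range ≤ Nat.card ↥(W ⊓ cz x) := by
      refine Subgroup.card_le_of_le ?_
      rintro _ ⟨⟨u, huU, hux⟩, rfl⟩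
      refine ⟨⟨⟨u, huU⟩, rfl⟩, mem_cz_conj.2 ?_⟩
      show x * (a * u * a⁻¹ * u⁻¹) * x⁻¹ = a * u * a⁻¹ * u⁻¹
      have hxu := mem_cz_conj.1 hux
      calc x * (a * u * a⁻¹ * u⁻¹) * x⁻¹ = (x * a * u * (x * a)⁻¹) * (x * u * x⁻¹)⁻¹ := by group
        _ = (a * x * u * (a * x)⁻¹) * u⁻¹ := by rw [hxu, hOc x hx a ha u (hUV huU)]
        _ = a * (x * u * x⁻¹) * a⁻¹ * u⁻¹ := by group
        _ = _ := by rw [hxu]
    rw [← h1, mul_comm]
    exact Nat.mul_le_mul h2 h3
  have hab : U0 ⊓ cz (a * b) = U0 ⊓ cz b := by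
    ext u
    refine and_congr_right fun hu => ?_
    show u ∈ cz (a * b) ↔ u ∈ cz b
    rw [mem_cz_conj, mem_cz_conj, ← mem_cz_conj.1 (hinv0 b hb u hu).2]
    constructor <;> intro h
    · calc a * (b * u * b⁻¹) * a⁻¹ = a * b * u * (a * b)⁻¹ := by group
        _ = u := h
    · calc a * b * u * (a * b)⁻¹ = a * (b * u * b⁻¹) * a⁻¹ := by group
        _ = u := h
  have hpair : Nat.card ↥(W ⊓ cz b) * Nat.card ↥(W ⊓ cz (a * b)) ≤ Nat.card W := by
    have hle : cz b ⊓ cz (a * b) ≤ cz a := fun y hy => by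
      have h1 := mem_cz.1 hy.1
      have h2 := mem_cz.1 hy.2
      rw [mem_cz]
      refine mul_right_cancel (b := b) ?_
      calc y * a * b = y * (a * b) := by group
        _ = a * b * y := h2
        _ = a * (y * b) := by rw [h1]; group
        _ = a * y * b := by group
    have hbot : W ⊓ (cz b ⊓ cz (a * b)) = ⊥ :=
      eq_bot_iff.2 ((inf_le_inf_left W hle).trans hWa.le)
    have hr : Nat.card W ≤ (cz b).relIndex W * (cz (a * b)).relIndex W := by
      refine le_trans ?_ Subgroup.relIndex_inf_le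
      have h := relIndex_mul_inf (cz b ⊓ cz (a * b)) W
      rw [hbot, Subgroup.card_bot, mul_one] at h
      exact h.ge
    have e1 := relIndex_mul_inf (cz b) W
    have e2 := relIndex_mul_inf (cz (a * b)) W
    have hpos : 0 < Nat.card W := Nat.card_pos
    refine Nat.le_of_mul_le_mul_left ?_ hpos
    calc Nat.card W * (Nat.card ↥(W ⊓ cz b) * Nat.card ↥(W ⊓ cz (a * b)))
        ≤ (cz b).relIndex W * (cz (a * b)).relIndex W *
          (Nat.card ↥(W ⊓ cz b) * Nat.card ↥(W ⊓ cz (a * b))) := Nat.mul_le_mul_right _ hr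
      _ = ((cz b).relIndex W * Nat.card ↥(W ⊓ cz b)) *
          ((cz (a * b)).relIndex W * Nat.card ↥(W ⊓ cz (a * b))) := by ring
      _ = Nat.card W * Nat.card W := by rw [e1, e2]
  rcases le_total (Nat.card ↥(W ⊓ cz b)) (Nat.card ↥(W ⊓ cz (a * b))) with h | h
  · refine ⟨b, hb, ?_⟩
    have h1 := hcount b hb
    calc _ ≤ (Nat.card ↥(U0 ⊓ cz b) * Nat.card ↥(W ⊓ cz b)) * (Nat.card ↥(U0 ⊓ cz b) * Nat.card ↥(W ⊓ cz b)) :=
          Nat.mul_le_mul h1 h1
      _ = (Nat.card ↥(U0 ⊓ cz b) * Nat.card ↥(U0 ⊓ cz b)) * (Nat.card ↥(W ⊓ cz b) * Nat.card ↥(W ⊓ cz b)) := by ring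
      _ ≤ Nat.card U0 * Nat.card W := Nat.mul_le_mul hb0 ((Nat.mul_le_mul_left _ h).trans hpair)
      _ = _ := hsplit
  · refine ⟨a * b, O.mul_mem ha hb, ?_⟩
    have h1 := hcount (a * b) (O.mul_mem ha hb)
    rw [hab] at h1
    calc _ ≤ (Nat.card ↥(U0 ⊓ cz b) * Nat.card ↥(W ⊓ cz (a * b))) *
          (Nat.card ↥(U0 ⊓ cz b) * Nat.card ↥(W ⊓ cz (a * b))) := Nat.mul_le_mul h1 h1
      _ = (Nat.card ↥(U0 ⊓ cz b) * Nat.card ↥(U0 ⊓ cz b)) *
          (Nat.card ↥(W ⊓ cz (a * b)) * Nat.card ↥(W ⊓ cz (a * b))) := by ring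
      _ ≤ Nat.card U0 * Nat.card W := Nat.mul_le_mul hb0 ((Nat.mul_le_mul_right _ h).trans hpair)
      _ = _ := hsplit

/-- A minimal normal subgroup of a solvable group whose order a prime divides is elementary abelian for it. -/
theorem minimal_normal_abelian [Finite Q] [Group.IsSolvable Q] {V : Subgroup Q} [hVn : V.Normal] (hV1 : V ≠ ⊥)
    (hmin : ∀ M : Subgroup Q, M.Normal → M ≠ ⊥ → M ≤ V → M = V) {p : ℕ} [Fact p.Prime]
    (hp : p ∣ Nat.card V) :
    (∀ u ∈ V, ∀ w ∈ V, u * w = w * u) ∧ IsPGroup p V := by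
  have hcomm : ⁅V, V⁆ = ⊥ := by
    by_contra h
    exact (Group.IsSolvable.commutator_lt_of_ne_bot hV1).ne
      (hmin _ (Subgroup.commutator_normal V V) h (Subgroup.commutator_le_right V V))
  have hab : ∀ a ∈ V, ∀ b ∈ V, a * b = b * a := fun a ha b hb => by
    have h := Subgroup.commutator_mem_commutator ha hb
    rwa [hcomm, Subgroup.mem_bot, commutatorElement_eq_one_iff_mul_comm] at h
  refine ⟨hab, ?_⟩
  let B : Subgroup Q :=
    { carrier := {a | a ∈ V ∧ a ^ p = 1}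
      one_mem' := ⟨V.one_mem, one_pow p⟩
      mul_mem' := fun {a b} ha hb => ⟨V.mul_mem ha.1 hb.1, by
        rw [(show Commute a b from hab a ha.1 b hb.1).mul_pow, ha.2, hb.2, one_mul]⟩
      inv_mem' := fun {a} ha => ⟨V.inv_mem ha.1, by rw [inv_pow, ha.2, inv_one]⟩ }
  have hBn : B.Normal := ⟨fun a ha g => ⟨hVn.conj_mem a ha.1 g, by
    rw [conj_pow, ha.2, mul_one, mul_inv_cancel]⟩⟩
  obtain ⟨a, ha⟩ := exists_prime_orderOf_dvd_card' p hp
  have haB : (a : Q) ∈ B := ⟨a.2, by rw [← SubmonoidClass.coe_pow, ← ha, pow_orderOf_eq_one, OneMemClass.coe_one]⟩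
  have hB : B = V := hmin B hBn (fun h => by
    rw [h, Subgroup.mem_bot, OneMemClass.coe_eq_one, ← orderOf_eq_one_iff] at haB
    exact (Fact.out : p.Prime).ne_one (ha.symm.trans haB)) fun x hx => hx.1
  intro x
  refine ⟨1, Subtype.ext ?_⟩
  rw [pow_one, SubmonoidClass.coe_pow, OneMemClass.coe_one]
  exact (hB.ge x.2).2

theorem exists_prime_normal_abelian {R : Type*} [Group R] [Finite R] [Group.IsSolvable R] [Nontrivial R] :
    ∃ A : Subgroup R, ∃ q : ℕ, q.Prime ∧ A.Normal ∧ A ≠ ⊥ ∧ IsPGroup q A ∧ ∀ a ∈ A, ∀ b ∈ A, a * b = b * a := by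
  obtain ⟨A, hA⟩ := exists_minimal_of_wellFoundedLT (α := Subgroup R) (P := fun A => A.Normal ∧ A ≠ ⊥)
    ⟨⊤, inferInstance, bot_ne_top.symm⟩
  obtain ⟨hAn, hAb⟩ := hA.prop
  obtain ⟨q, hq, hqd⟩ := Nat.exists_prime_and_dvd (fun h => hAb (Subgroup.card_eq_one.1 h))
  haveI := Fact.mk hq
  obtain ⟨h1, h2⟩ := minimal_normal_abelian (V := A) hAb
    (fun M hM hM1 hle => le_antisymm hle (hA.2 ⟨hM, hM1⟩ hle)) hqd
  exact ⟨A, q, hq, hAn, hAb, h2, h1⟩

/-- On a non-central minimal normal `p`-subgroup of a solvable group some element has small centraliser. -/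
theorem exists_small_centralizer [Finite Q] [Group.IsSolvable Q] {V : Subgroup Q} [hVn : V.Normal]
    (hmin : ∀ M : Subgroup Q, M.Normal → M ≠ ⊥ → M ≤ V → M = V) {p : ℕ} [hp : Fact p.Prime]
    (hVp : IsPGroup p V) (hab : ∀ u ∈ V, ∀ w ∈ V, u * w = w * u)
    (hnc : ¬ V ≤ Subgroup.center Q) :
    ∃ o : Q, Nat.card ↥(V ⊓ cz o) * Nat.card ↥(V ⊓ cz o) ≤ Nat.card V := by
  set C := Subgroup.centralizer (V : Set Q) with hC
  have hCtop : C ≠ ⊤ := fun h => hnc fun v hv => Subgroup.mem_center_iff.2 fun g =>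
    (Subgroup.mem_centralizer_iff.1 (h.ge (Subgroup.mem_top g)) v hv).symm
  haveI : C.Normal := by rw [hC]; infer_instance
  haveI : Nontrivial (Q ⧸ C) := QuotientGroup.nontrivial_iff.2 hCtop
  obtain ⟨A, q, hq, hAn, hA1, hAq, hAab⟩ := exists_prime_normal_abelian (R := Q ⧸ C)
  haveI := hAn
  haveI := Fact.mk hq
  set π := QuotientGroup.mk' C with hπ
  set M := A.comap π with hM
  haveI hMn : M.Normal := hAn.comap π
  obtain ⟨P⟩ : Nonempty (Sylow q M) := inferInstance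
  set O : Subgroup Q := (P : Subgroup M).map M.subtype with hO
  have hOq : IsPGroup q O := P.isPGroup'.map M.subtype
  have hOM : O ≤ M := Subgroup.map_subtype_le _
  have hrep : ∀ m ∈ M, ∃ o ∈ O, o⁻¹ * m ∈ C := by
    let f : M →* A := (π.comp M.subtype).codRestrict A fun m => m.2
    have hf : Function.Surjective f := fun b => by
      obtain ⟨x, hx⟩ := QuotientGroup.mk'_surjective C (b : Q ⧸ C)
      exact ⟨⟨x, by rw [hM, Subgroup.mem_comap, hπ, hx]; exact b.2⟩, Subtype.ext hx⟩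
    have htop : (P : Subgroup M).map f = ⊤ := by
      have h1 := (P.mapSurjective hf).is_maximal' (Q := ⊤) (hAq.of_equiv Subgroup.topEquiv.symm) le_top
      rw [Sylow.coe_mapSurjective] at h1
      exact h1.symm
    intro m hm
    obtain ⟨o, ho, hoe⟩ := htop.ge (Subgroup.mem_top (f ⟨m, hm⟩))
    refine ⟨o, ⟨o, ho, rfl⟩, ?_⟩
    have h1 : π (o : Q) = π m := congrArg Subtype.val hoe
    exact QuotientGroup.eq.1 h1
  have hconj : ∀ m ∈ M, ∀ v ∈ V, (∀ o ∈ O, o * v = v * o) → m * v = v * m := by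
    intro m hm v hv hov
    obtain ⟨o, ho, hc⟩ := hrep m hm
    have h2 : o⁻¹ * m * v = v * (o⁻¹ * m) := (Subgroup.mem_centralizer_iff.1 hc v hv).symm
    calc m * v = o * (o⁻¹ * m * v) := by group
      _ = o * v * (o⁻¹ * m) := by rw [h2]; group
      _ = v * o * (o⁻¹ * m) := by rw [hov o ho]
      _ = v * m := by group
  have hfix : V ⊓ Subgroup.centralizer (O : Set Q) = ⊥ := by
    by_contra hne
    have heq : V ⊓ Subgroup.centralizer (O : Set Q) = V ⊓ Subgroup.centralizer (M : Set Q) := by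
      refine le_antisymm (fun v hv => ⟨hv.1, Subgroup.mem_centralizer_iff.2 fun m hm => ?_⟩)
        (inf_le_inf_left V (Subgroup.centralizer_le hOM))
      exact hconj m hm v hv.1 fun o ho => Subgroup.mem_centralizer_iff.1 hv.2 o ho
    rw [heq] at hne
    have hV := hmin _ inferInstance hne inf_le_left
    apply hA1
    rw [eq_bot_iff]
    intro b hb
    obtain ⟨x, rfl⟩ := QuotientGroup.mk'_surjective C b
    rw [Subgroup.mem_bot, QuotientGroup.mk'_apply, QuotientGroup.eq_one_iff]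
    refine Subgroup.mem_centralizer_iff.2 fun v hv => ?_
    exact (Subgroup.mem_centralizer_iff.1 (hV.ge hv).2 x hb).symm
  have hV1 : V ≠ ⊥ := fun h => hnc (h ▸ bot_le)
  have hqp : q ≠ p := by
    rintro rfl
    letI : MulAction O V := MulAction.compHom V ((MulAut.conjNormal : Q →* MulAut V).comp O.subtype)
    have hdvd : q ∣ Nat.card V := by
      obtain ⟨n, hn⟩ := hVp.exists_card_eq
      rcases n with _ | n
      · exact absurd (Subgroup.card_eq_one.1 (hn.trans (pow_zero q))) hV1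
      · exact hn ▸ dvd_pow_self q n.succ_ne_zero
    obtain ⟨v, hv, hv1⟩ := hOq.exists_fixed_point_of_prime_dvd_card_of_fixed_point (α := V) hdvd
      (a := 1) (fun o => map_one ((MulAut.conjNormal (o : Q) : MulAut V)))
    have hvO : (v : Q) ∈ V ⊓ Subgroup.centralizer (O : Set Q) := by
      refine ⟨v.2, Subgroup.mem_centralizer_iff.2 fun o ho => ?_⟩
      have h1 : ((MulAut.conjNormal o v : V) : Q) = v := congrArg Subtype.val (hv ⟨o, ho⟩)
      rw [MulAut.conjNormal_apply] at h1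
      exact mul_inv_eq_iff_eq_mul.1 h1
    rw [hfix, Subgroup.mem_bot] at hvO
    exact hv1 (Subtype.ext hvO.symm)
  have hcop : (Nat.card O).Coprime (Nat.card V) := by
    obtain ⟨a, ha⟩ := hOq.exists_card_eq
    obtain ⟨b, hb⟩ := hVp.exists_card_eq
    rw [ha, hb]
    exact Nat.Coprime.pow _ _ ((Nat.coprime_primes hq hp.out).2 hqp)
  have hOc : ∀ a ∈ O, ∀ b ∈ O, ∀ v ∈ V, a * b * v * (a * b)⁻¹ = b * a * v * (b * a)⁻¹ := by
    intro a ha b hb v hv
    have h1 : π (a * b) = π (b * a) := by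
      rw [map_mul, map_mul]
      exact hAab _ (hOM ha) _ (hOM hb)
    have h2 := Subgroup.mem_centralizer_iff.1 (QuotientGroup.eq.1 h1) v hv
    calc a * b * v * (a * b)⁻¹ = a * b * (v * ((a * b)⁻¹ * (b * a))) * (b * a)⁻¹ := by group
      _ = _ := by rw [h2]; group
  obtain ⟨o, -, ho⟩ := exists_small_fixed hab hcop hOc V le_rfl
    (fun o _ u hu => hVn.conj_mem u hu o) hfix
  exact ⟨o, ho⟩

end CfsgLib.ClassPPart
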