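import Mathlib
import Cfsg.Agent.ClassPPart.Avg
import Cfsg.Agent.Clifford.Basic
import Cfsg.Agent.Clifford.Ito

/-!
For a quasi-primitive character of a solvable group, the `p`-part of the degree is bounded by three times
the average `p`-part of a class size.
-/

set_option autoImplicit false
set_option linter.style.haveILetI false

namespace CfsgLib.ClassPPart

open CfsgLib.CharBasics
open scoped ComplexConjugate

variable {G : Type*} [Group G]

/-- A multiplicity over an irreducible character is bounded by the index. -/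
theorem sq_le_index [Fintype G] (N : Subgroup G) [Fintype N] {χ : G → ℂ} (hχ : Cfsg.IsIrrCharacter G χ)
    {θ : N → ℂ} (hθ : Cfsg.IsIrrCharacter N θ) (e : ℕ) (he : ∀ n : N, χ n = (e : ℂ) * θ n) :
    e ^ 2 ≤ N.index := by
  classical
  have hG := classInner_self hχ
  rw [classInner_eq, ← Finset.sum_filter_add_sum_filter_not Finset.univ (fun g : G => g ∈ N),
    inv_mul_eq_iff_eq_mul₀ (Nat.cast_ne_zero.mpr Nat.card_pos.ne'), mul_one] at hG
  have hsub : ∑ g ∈ Finset.univ.filter (fun g : G => g ∈ N), χ g * conj (χ g) = ∑ n : N, χ n * conj (χ n) :=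
    Finset.sum_subtype _ (by simp) (fun g => χ g * conj (χ g))
  have hN := classInner_self hθ
  rw [classInner_eq, inv_mul_eq_iff_eq_mul₀ (Nat.cast_ne_zero.mpr Nat.card_pos.ne'), mul_one] at hN
  have hsq : ∑ n : N, χ n * conj (χ n) = (e : ℂ) ^ 2 * (Nat.card N : ℂ) := by
    rw [← hN, Finset.mul_sum]
    refine Finset.sum_congr rfl fun n _ => ?_
    rw [he n, map_mul, Complex.conj_natCast]
    ring
  rw [hsub, hsq, ← Subgroup.index_mul_card N] at hG
  simp only [Complex.mul_conj, ← Complex.ofReal_sum] at hG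
  have h1 := congrArg Complex.re hG
  simp only [Complex.add_re, Complex.ofReal_re] at h1
  have h0 : (0 : ℝ) ≤ ∑ g ∈ Finset.univ.filter (fun g : G => g ∉ N), Complex.normSq (χ g) :=
    Finset.sum_nonneg fun g _ => Complex.normSq_nonneg _
  have h2 : ((e ^ 2 * Nat.card N : ℕ) : ℝ) ≤ ((N.index * Nat.card N : ℕ) : ℝ) := by
    have e1 : ((e : ℂ) ^ 2 * (Nat.card N : ℂ)) = (((e ^ 2 * Nat.card N : ℕ) : ℝ) : ℂ) := by push_cast; ring
    have e2 : (((N.index * Nat.card N : ℕ)) : ℂ) = (((N.index * Nat.card N : ℕ) : ℝ) : ℂ) := by push_cast; ring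
    rw [e1, e2, Complex.ofReal_re, Complex.ofReal_re] at h1
    linarith
  exact Nat.le_of_mul_le_mul_right (by exact_mod_cast h2) Nat.card_pos

/-- The `p`-part exponent of the index in `K` of the centraliser of `g`. -/
noncomputable def cw (p : ℕ) (K : Subgroup G) (g : G) : ℕ := ((cz g).relIndex K).factorization p

theorem cw_add_le [Finite G] (p : ℕ) (K L : Subgroup G) [L.Normal] (hLK : L ≤ K) (g : G) :
    cw p L g + ((cz (QuotientGroup.mk' L g)).relIndex (K.map (QuotientGroup.mk' L))).factorization p ≤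
      cw p K g := by
  set π := QuotientGroup.mk' L with hπ
  set r := cz g with hr
  have hne : ∀ A B : Subgroup G, A.relIndex B ≠ 0 := fun A B => Subgroup.index_ne_zero_of_finite
  have hne' : (cz (π g)).relIndex (K.map π) ≠ 0 := Subgroup.index_ne_zero_of_finite
  suffices h : r.relIndex L * (cz (π g)).relIndex (K.map π) ∣ r.relIndex K by
    have := (Nat.factorization_le_iff_dvd (mul_ne_zero (hne _ _) hne') (hne _ _)).2 h p
    rw [Nat.factorization_mul (hne _ _) hne'] at this
    exact this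
  have himg : (K ⊓ r).map π ≤ K.map π ⊓ cz (π g) := by
    rintro _ ⟨y, hy, rfl⟩
    exact ⟨⟨y, hy.1, rfl⟩, mem_cz.2 (by rw [← map_mul, ← map_mul, mem_cz.1 hy.2])⟩
  obtain ⟨c, hc⟩ := Subgroup.card_dvd_of_le himg
  have hcard : ∀ A : Subgroup G, Nat.card A = Nat.card ↥(L ⊓ A) * Nat.card ↥(A.map π) := by
    intro A
    have h1 := Subgroup.index_mul_card (π.comp A.subtype).ker
    rw [Subgroup.index_ker, MonoidHom.range_comp, Subgroup.range_subtype] at h1
    have h2 : Nat.card (π.comp A.subtype).ker = Nat.card ↥(L ⊓ A) := by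
      refine Nat.card_congr
        { toFun := fun u => ⟨(u.1 : G), (QuotientGroup.eq_one_iff _).1 u.2, u.1.2⟩
          invFun := fun u => ⟨⟨u.1, u.2.2⟩, (QuotientGroup.eq_one_iff _).2 u.2.1⟩
          left_inv := fun u => rfl
          right_inv := fun u => rfl }
    rw [h2] at h1
    rw [mul_comm]
    exact h1.symm
  have hK := hcard K
  rw [inf_eq_left.2 hLK] at hK
  have hS := hcard (K ⊓ r)
  rw [← inf_assoc, inf_eq_left.2 hLK] at hS
  have e1 := relIndex_mul_inf r K
  have e2 := relIndex_mul_inf r L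
  have e3 := relIndex_mul_inf (cz (π g)) (K.map π)
  refine ⟨c, Nat.eq_of_mul_eq_mul_right (Nat.card_pos (α := ↥(K ⊓ r))) ?_⟩
  rw [e1, hK, hS, ← e2, ← e3, hc]
  ring

theorem restrict_multiple [Fintype G] {χ : G → ℂ} (hχ : Cfsg.IsIrrCharacter G χ)
    (hprim : ¬ ∃ (H : Subgroup G), H ≠ ⊤ ∧ ∃ θ : ↥H → ℂ, Cfsg.IsCharacter ↥H θ ∧ Cfsg.indFun H θ = χ)
    (N : Subgroup G) [N.Normal] [Fintype N] {θ : N → ℂ} (hθ : Cfsg.IsIrrCharacter N θ)
    (h : Cfsg.classInner (fun n : N => χ n) θ ≠ 0) :
    ∃ a : ℕ, a ≠ 0 ∧ ∀ n : N, χ n = (a : ℂ) * θ n := by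
  classical
  obtain ⟨a, ha⟩ := classInner_characters_nat
    (isCharacter_restrict (isCharacter_of_irr hχ) N) (isCharacter_of_irr hθ)
  change Cfsg.classInner (fun n : N => χ n) θ = (a : ℂ) at ha
  have hT : CfsgLib.Clifford.inertia (G := G) θ = ⊤ := by
    by_contra hne
    haveI := Fintype.ofFinite ↥(CfsgLib.Clifford.inertia (G := G) θ)
    obtain ⟨ψ, hψ, hind, -, -⟩ := CfsgLib.Clifford.exists_inertia_correspondent hχ hθ h
      (CfsgLib.Clifford.inertia θ) rfl
      (CfsgLib.Clifford.le_inertia (CfsgLib.CharBasics.isClassFunction (isCharacter_of_irr hθ)))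
    exact hprim ⟨_, hne, ψ, isCharacter_of_irr hψ, hind⟩
  have h1 := CfsgLib.Clifford.restrict_eq_smul_of_invariant hχ hθ
    (fun g => CfsgLib.Clifford.mem_inertia.1 (hT.ge (Subgroup.mem_top g))) h
  rw [ha] at h1
  exact ⟨a, fun h0 => h (by rw [ha, h0, Nat.cast_zero]), fun n => congrFun h1 n⟩

theorem relIndex_pow [Finite G] {p : ℕ} [hp : Fact p.Prime] {V : Subgroup G} (hV : IsPGroup p V) (A : Subgroup G) :
    A.relIndex V = p ^ (A.relIndex V).factorization p := by
  obtain ⟨n, hn⟩ := hV.exists_card_eq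
  obtain ⟨k, -, hk⟩ := (Nat.dvd_prime_pow hp.out).1
    (hn ▸ (Dvd.intro _ (relIndex_mul_inf A V) : A.relIndex V ∣ Nat.card V))
  rw [hk, Nat.factorization_pow, Finsupp.smul_apply, hp.out.factorization_self, smul_eq_mul, mul_one]

theorem main_bound [Fintype G] [Group.IsSolvable G] {χ : G → ℂ} (hχ : Cfsg.IsIrrCharacter G χ)
    (hprim : ¬ ∃ (H : Subgroup G), H ≠ ⊤ ∧ ∃ θ : ↥H → ℂ, Cfsg.IsCharacter ↥H θ ∧ Cfsg.indFun H θ = χ)
    (p : ℕ) [hp : Fact p.Prime] :
    ∀ (K : Subgroup G) [K.Normal] [Fintype K] (θ : K → ℂ), Cfsg.IsIrrCharacter K θ →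
      Cfsg.classInner (fun n : K => χ n) θ ≠ 0 →
      Nat.card G * (Cfsg.charDegree θ).factorization p ≤ 3 * ∑ g : G, cw p K g := by
  intro K
  induction hn : Nat.card K using Nat.strong_induction_on generalizing K with
  | _ n ih =>
  intro _ _ θ' hθ' hc'
  subst hn
  classical
  by_cases hK : K = ⊥
  · haveI : IsMulCommutative K := by
      subst hK
      infer_instance
    have h1 : Cfsg.charDegree θ' = 1 := by
      have h := (irr_comm_hom hθ').1
      rw [apply_one (isCharacter_of_irr hθ'), Nat.cast_eq_one] at h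
      exact h
    simp [h1]
  obtain ⟨L, ⟨hLn, hLlt⟩, hLmax⟩ := Set.Finite.exists_maximal
    (s := {L : Subgroup G | L.Normal ∧ L < K}) (Set.toFinite _) ⟨⊥, inferInstance, bot_lt_iff_ne_bot.2 hK⟩
  haveI := hLn
  haveI := Fintype.ofFinite L
  have hLK : L ≤ K := hLlt.le
  obtain ⟨θs, hθs⟩ := exists_restrict_constituent L ⟨χ, hχ⟩
  have hc : Cfsg.classInner (fun n : L => χ n) (θs : L → ℂ) ≠ 0 := by
    rw [classInner_comm, Ne, map_eq_zero]
    exact hθs
  have hcardlt : Nat.card L < Nat.card K :=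
    Set.ncard_lt_ncard (SetLike.coe_ssubset_coe.2 hLlt) (Set.toFinite _)
  have hIH := ih (Nat.card L) hcardlt L rfl (θs : L → ℂ) θs.2 hc
  have hmono : ∑ g : G, cw p L g +
      ∑ g : G, ((cz (QuotientGroup.mk' L g)).relIndex (K.map (QuotientGroup.mk' L))).factorization p ≤
      ∑ g : G, cw p K g := by
    rw [← Finset.sum_add_distrib]
    exact Finset.sum_le_sum fun g _ => cw_add_le p K L hLK g
  obtain ⟨a', ha'0, ha'⟩ := restrict_multiple hχ hprim K hθ' hc'
  obtain ⟨a, ha0, ha⟩ := restrict_multiple hχ hprim L θs.2 hc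
  set L' := L.subgroupOf K with hL'
  haveI : L'.Normal := by rw [hL']; exact hLn.subgroupOf K
  haveI := Fintype.ofFinite L'
  let eq' : L' ≃* L := Subgroup.subgroupOfEquivOfLe hLK
  have hθL : Cfsg.IsIrrCharacter L' (fun m => (θs : L → ℂ) (eq' m)) :=
    CfsgLib.Clifford.isIrrCharacter_comp θs.2 eq'.toMonoidHom eq'.surjective
  obtain ⟨e, he⟩ := classInner_characters_nat
    (isCharacter_restrict (isCharacter_of_irr hθ') L') (isCharacter_of_irr hθL)
  change Cfsg.classInner (fun m : L' => θ' m) (fun m => (θs : L → ℂ) (eq' m)) = (e : ℂ) at he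
  have ha'C : (a' : ℂ) ≠ 0 := Nat.cast_ne_zero.2 ha'0
  have hfun : (fun m : L' => θ' m) = ((a : ℂ) / a') • fun m : L' => (θs : L → ℂ) (eq' m) := by
    funext m
    rw [Pi.smul_apply, smul_eq_mul, div_mul_eq_mul_div, eq_div_iff ha'C, mul_comm]
    exact (ha' (m : K)).symm.trans (ha (eq' m))
  have he' : (e : ℂ) = (a : ℂ) / a' := by
    rw [← he, hfun, classInner_smul_left, classInner_self hθL, mul_one]
  have hpt : ∀ m : L', θ' m = (e : ℂ) * (θs : L → ℂ) (eq' m) := fun m => by
    rw [he']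
    exact congrFun hfun m
  have hdeg : Cfsg.charDegree θ' = e * Cfsg.charDegree (θs : L → ℂ) := by
    have h := hpt 1
    rw [map_one, Subgroup.coe_one, apply_one (isCharacter_of_irr hθ'), apply_one (isCharacter_of_irr θs.2),
      ← Nat.cast_mul, Nat.cast_inj] at h
    exact h
  have he0 : e ≠ 0 := fun h0 => by
    have h := hdeg
    rw [h0, zero_mul] at h
    exact (charDegree_pos hθ').ne' h
  have hvd : (Cfsg.charDegree θ').factorization p =
      e.factorization p + (Cfsg.charDegree (θs : L → ℂ)).factorization p := by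
    rw [hdeg, Nat.factorization_mul he0 (charDegree_pos θs.2).ne']
    rfl
  by_cases hv : e.factorization p = 0
  · rw [hvd, hv, zero_add]
    omega
  have hidx : L'.index = Nat.card ↥(K.map (QuotientGroup.mk' L)) := by
    have h1 := Subgroup.index_ker ((QuotientGroup.mk' L).comp K.subtype)
    rw [MonoidHom.range_comp, Subgroup.range_subtype] at h1
    rw [← h1]
    congr 1
    ext m
    exact (QuotientGroup.eq_one_iff (N := L) (m : G)).symm
  have hcl : Cfsg.IsClassFunction K θ' := CfsgLib.CharBasics.isClassFunction (isCharacter_of_irr hθ')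
  have hinv : ∀ x : K, CfsgLib.Clifford.conjFun x (fun m : L' => (θs : L → ℂ) (eq' m)) = fun m => (θs : L → ℂ) (eq' m) := by
    intro x
    funext m
    have h1 := congrFun (CfsgLib.Clifford.conjFun_restrict (N := L') hcl x) m
    rw [CfsgLib.Clifford.conjFun_apply] at h1 ⊢
    rw [hpt, hpt] at h1
    exact mul_left_cancel₀ (Nat.cast_ne_zero.2 he0) h1
  have hedvd := CfsgLib.Clifford.charMult_dvd_index hθ' hθL hinv e hpt
  have hesq := sq_le_index L' hθ' hθL e hpt
  rw [hidx] at hedvd hesq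
  set π := QuotientGroup.mk' L with hπ
  set V := K.map π with hV
  haveI hVn : V.Normal := Subgroup.Normal.map inferInstance π (QuotientGroup.mk'_surjective L)
  have hpV : p ∣ Nat.card V := (Nat.dvd_of_factorization_pos hv).trans hedvd
  have hVmin : ∀ M : Subgroup (G ⧸ L), M.Normal → M ≠ ⊥ → M ≤ V → M = V := by
    intro M hM hM1 hMV
    have hcV : V.comap π = K := by
      rw [hV, hπ, Subgroup.comap_map_eq, QuotientGroup.ker_mk', sup_eq_left.2 hLK]
    have hLM : L ≤ M.comap π := fun x hx => by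
      rw [Subgroup.mem_comap, hπ, QuotientGroup.mk'_apply, (QuotientGroup.eq_one_iff x).2 hx]
      exact M.one_mem
    refine le_antisymm hMV ?_
    by_contra hle
    have hlt : M.comap π < K := lt_of_le_of_ne ((Subgroup.comap_mono hMV).trans hcV.le) fun h => hle (by
      rw [hV, ← h, Subgroup.map_comap_eq_self_of_surjective (QuotientGroup.mk'_surjective L)])
    refine hM1 ?_
    rw [← Subgroup.map_comap_eq_self_of_surjective (QuotientGroup.mk'_surjective L) M,
      le_antisymm (hLmax ⟨hM.comap π, hlt⟩ hLM) hLM, Subgroup.map_eq_bot_iff, QuotientGroup.ker_mk']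
  have hV1 : V ≠ ⊥ := fun h => by
    rw [h, Subgroup.card_bot] at hpV
    exact hp.out.not_dvd_one hpV
  obtain ⟨hVab, hVp⟩ := minimal_normal_abelian hV1 hVmin hpV
  obtain ⟨k, hk⟩ := hVp.exists_card_eq
  have h2v : 2 * e.factorization p ≤ k := by
    have h1 : p ^ e.factorization p ≤ e := Nat.le_of_dvd (Nat.pos_of_ne_zero he0) (Nat.ordProj_dvd e p)
    have h2 : p ^ (2 * e.factorization p) ≤ p ^ k := by
      rw [← hk, mul_comm, pow_mul]
      exact (Nat.pow_le_pow_left h1 2).trans hesq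
    exact (Nat.pow_le_pow_iff_right hp.out.one_lt).1 h2
  have hnc : ¬ V ≤ Subgroup.center (G ⧸ L) := by
    intro hcen
    obtain ⟨x, hx⟩ := exists_prime_orderOf_dvd_card' p hpV
    have hn : (Subgroup.zpowers (x : G ⧸ L)).Normal := ⟨fun y hy g => by
      have hyV : y ∈ V := (Subgroup.zpowers_le.2 x.2) hy
      rw [Subgroup.mem_center_iff.1 (hcen hyV) g, mul_inv_cancel_right]
      exact hy⟩
    have hne : Subgroup.zpowers (x : G ⧸ L) ≠ ⊥ := fun h => by
      rw [Subgroup.zpowers_eq_bot, OneMemClass.coe_eq_one] at h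
      rw [h, orderOf_one] at hx
      exact hp.out.ne_one hx.symm
    have h := hVmin _ hn hne (Subgroup.zpowers_le.2 x.2)
    rw [← h, Nat.card_zpowers, Subgroup.orderOf_coe, hx] at hk
    have : k = 1 := (Nat.pow_right_injective hp.out.two_le (by simpa using hk.symm))
    omega
  obtain ⟨o, ho⟩ := exists_small_centralizer hVmin hVp hVab hnc
  obtain ⟨o0, rfl⟩ := QuotientGroup.mk'_surjective L o
  set d : G → ℕ := fun g => ((cz (π g)).relIndex V).factorization p with hd
  have hdo : k ≤ 2 * d o0 := by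
    have h1 := relIndex_mul_inf (cz (π o0)) V
    set c := Nat.card ↥(V ⊓ cz (π o0)) with hcdef
    have hcpos : 0 < c := Nat.card_pos
    have hr : (cz (π o0)).relIndex V = p ^ d o0 := relIndex_pow hVp _
    have h2 : c ≤ p ^ d o0 := by
      refine Nat.le_of_mul_le_mul_right ?_ hcpos
      rw [← hr, h1]
      exact ho
    have h3 : p ^ k ≤ p ^ (2 * d o0) := by
      rw [← hk, ← h1, hr, two_mul, pow_add]
      exact Nat.mul_le_mul_left _ h2
    exact (Nat.pow_le_pow_iff_right hp.out.one_lt).1 h3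
  have hpair : ∀ g : G, d o0 ≤ d g + d (g * o0) := fun g => by
    have h1 := pair_relIndex_le V (π g) (π o0)
    rw [← map_mul, relIndex_pow hVp (cz (π o0)), relIndex_pow hVp (cz (π g)),
      relIndex_pow hVp (cz (π (g * o0))), ← pow_add] at h1
    exact (Nat.pow_le_pow_iff_right hp.out.one_lt).1 h1
  have hsum : Nat.card G * d o0 ≤ 2 * ∑ g : G, d g := by
    have h1 : ∑ _g : G, d o0 ≤ ∑ g : G, (d g + d (g * o0)) := Finset.sum_le_sum fun g _ => hpair g
    rw [Finset.sum_const, Finset.card_univ, smul_eq_mul, Finset.sum_add_distrib,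
      Fintype.sum_equiv (Equiv.mulRight o0) (fun g => d (g * o0)) d (fun g => rfl)] at h1
    rw [Nat.card_eq_fintype_card]
    omega
  rw [hvd, mul_add]
  have h3 : Nat.card G * e.factorization p ≤ Nat.card G * d o0 := Nat.mul_le_mul_left _ (by omega)
  have h4 : ∑ g : G, cw p L g + ∑ g : G, d g ≤ ∑ g : G, cw p K g := hmono
  omega

end CfsgLib.ClassPPart
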